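import Cfsg.Agent.TH.Perm2
import Cfsg.Agent.S3035
import Cfsg.Agent.L0.Subnormal

/-! Four involutions in a group with a dihedral involution centralizer of order eight. -/

set_option autoImplicit false
set_option linter.unusedSectionVars false
set_option maxRecDepth 100000

namespace Cfsg.TH

open Subgroup Cfsg.H6 Equiv

def L5 : List ℕ := [36344967696, 36344906256, 36344963856, 36344837136, 36344967456, 36344906016, 36344959536, 36344828976, 36344771136, 36344767296, 36344967681, 36344906241, 36344963841, 36344837121, 36344967186, 36344905746, 36344959026, 36344770626, 36344955411, 36344824851, 36344955171, 36344758851, 36344705556, 36344701716, 36344705316, 36344697396]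
def L6 : List ℕ := [36344967696, 36343980816, 36342748176, 36341761296, 36343984416, 36344906016, 36342878496, 36343976496, 36344828976, 36341814576, 36342682176, 36344767296, 36341626176, 36340712016, 36340769616, 36340642896, 36343984641, 36344906241, 36342878721, 36344963841, 36344837121, 36341822721, 36343984146, 36344905746, 36342878226, 36344959026, 36344770626, 36340772946, 36343972371, 36344824851, 36341810451, 36344955171, 36344758851, 36340761171, 36342616596, 36344701716, 36341560596, 36344705316, 36344697396, 36340511316, 36339663381, 36339720981, 36339594261, 36339724581, 36339716661, 36339528261]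
def L7 : List ℕ := [36344967696, 36092326416, 35776770576, 35524129296, 36093305616, 36343980816, 36342748176, 36341761296, 35204134416, 34952472336, 36329238816, 35539857696, 35810185776, 36311536176, 36294451776, 35002595136, 35267048016, 36273665616, 36261020256, 36257936736, 34732266096, 34734224496]
def R1 : List (List ℕ) := [[2, 3, 4, 3, 2, 1, 4, 3, 4, 1], [2, 3, 4, 3, 2, 2, 3, 4, 3, 2], [1, 2, 1, 2, 2, 3, 4, 3, 2, 1, 2, 1, 2, 2, 3, 4, 3, 2, 1, 2, 1, 2, 2, 3, 4, 3, 2], [2, 3, 4, 3, 2, 1, 2, 3, 4, 3, 2, 1, 2, 3, 4, 3, 2, 1], [2, 3, 4, 3, 2, 1, 2, 1, 2, 1, 2, 3, 4, 3, 2, 3]]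
def r2 : List ℕ := [1, 2, 1, 2, 2, 3, 4, 1, 2, 1, 2, 2, 3, 2, 1, 2, 1, 2, 1, 4, 1, 1, 2, 1, 2, 3, 4, 1]
def n2 : List ℕ := [1, 2, 1, 2, 2, 3, 4, 1, 2, 1, 2, 2, 3, 2, 1, 2, 1, 2, 2, 3, 2, 1, 2, 1, 2, 4, 3, 2]
def R3 : List (List ℕ) := [[3, 4, 3, 4, 3, 4, 3, 4, 3, 4], [1, 2, 1, 2, 3, 4, 3, 4, 3, 1, 2, 1, 2, 3, 4, 3, 4, 3, 1, 2, 1, 2, 3, 4, 3, 4, 3, 1, 2, 1, 2, 3, 4, 3, 4, 3, 1, 2, 1, 2, 3, 4, 3, 4, 3], [1, 2, 1, 2, 1, 2, 1, 2, 3, 4, 3, 4, 3, 1, 2, 1, 2, 1, 2, 1, 2, 3, 4, 3, 4, 3]]
def n3 : List ℕ := [1, 2, 1, 2, 3, 4, 3, 4, 3]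

/-- The three possible configurations of the letters `c, k, v, w`. -/
def Cf {H : Type*} [Group H] (x : ℕ → H) : Prop :=
  (∀ r ∈ R1, evL x r = 1) ∨ (evL x r2 = 1 ∧ evL x n2 ≠ 1) ∨ ((∀ r ∈ R3, evL x r = 1) ∧ evL x n3 ≠ 1)

noncomputable def pv (c k v w : ℕ) (u : List ℕ) : ℕ :=
  @List.rec ℕ (fun _ => ℕ) idc (fun l _ y => pmul ([idc, c, k, v, w].getD l idc) y) u

noncomputable def chk4 (L : List ℕ) : Bool := L.all fun c => L.all fun k => fr (fun a =>
  Nat.beq a idc || !Nat.beq (pmul a a) idc || L.all fun v => !Nat.beq (pmul (pmul v a) v) c ||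
    L.all fun w => !Nat.beq (pmul (pmul w a) w) k || ((R1.all fun r => Nat.beq (pv c k v w r) idc) ||
      ((Nat.beq (pv c k v w r2) idc && !Nat.beq (pv c k v w n2) idc) ||
      ((R3.all fun r => Nat.beq (pv c k v w r) idc) && !Nat.beq (pv c k v w n3) idc))))
  (pmul (pmul c k) (pmul c k))

theorem chk5 : chk4 L5 = true := by decide +kernel
theorem chk6 : chk4 L6 = true := by decide +kernel
theorem chk7 : chk4 L7 = true := by decide +kernel

variable {H : Type*} [Group H] {c k v w : H}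

theorem cf_of (ψ : H →* Perm (Fin 9)) (hψ : Function.Injective ψ) {L : List ℕ}
    (hL : ∀ x, x * x = 1 → cdp (ψ x) ∈ L) (h : chk4 L = true) (c2 : c * c = 1) (k2 : k * k = 1)
    (v2 : v * v = 1) (w2 : w * w = 1) (ha : orderOf (c * k * (c * k)) = 2)
    (hv : v * (c * k * (c * k)) * v = c) (hw : w * (c * k * (c * k)) * w = k) :
    Cf fun l => [1, c, k, v, w].getD l 1 := by
  have e1 : cdp 1 = idc := cd_one
  have e2 : ∀ x, cdp (ψ x) = idc ↔ x = 1 := fun x =>
    ⟨fun e => hψ ((cdp_inj (e.trans e1.symm)).trans (map_one ψ).symm), fun e => by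
      rw [e, map_one, e1]⟩
  have e3 : ∀ x y, pmul (cdp (ψ x)) (cdp (ψ y)) = cdp (ψ (x * y)) := fun x y => by
    rw [map_mul, cdp_mul]
  have e4 : ∀ u, pv (cdp (ψ c)) (cdp (ψ k)) (cdp (ψ v)) (cdp (ψ w)) u =
      cdp (ψ (evL (fun l => [1, c, k, v, w].getD l 1) u)) := fun u => by
    induction u with
    | nil => exact ((e2 1).2 rfl).symm
    | cons l u ih =>
      rw [evL_cons, ← e3, ← ih, ← List.getD_map _ _ fun x => cdp (ψ x), List.map_cons, (e2 1).2 rfl]
      rfl
  simp only [chk4, List.all_eq_true, fr_eq, Bool.or_eq_true, Bool.and_eq_true, Bool.not_eq_true',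
    ← Bool.not_eq_true, Nat.beq_eq] at h
  have := h _ (hL c c2) _ (hL k k2)
  rw [e3, e3, e3, e2, e2] at this
  have := (this.resolve_left (by
    rintro (e | e)
    · rw [e, orderOf_one] at ha; omega
    · exact e (by rw [← pow_two, ← ha, pow_orderOf_eq_one])) _ (hL v v2)).resolve_left (by
      rw [e3, e3, hv]; simp) _ (hL w w2)
  simp only [e3, e4, e2, hw, not_true, false_or] at this
  exact this

theorem fix_emb {n : ℕ} (h : n ≤ 9) (σ : Perm (Fin n)) {i : ℕ} (h1 : n ≤ i) (h2 : i < 9) :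
    pf (cdp (Perm.viaEmbeddingHom (Fin.castLEEmb h) σ)) i = i := by
  rw [pf_cdp _ h2, Perm.viaEmbeddingHom_apply, Perm.viaEmbedding_apply_of_notMem]
  rintro ⟨j, e⟩
  have := congrArg Fin.val e
  simp at this; omega

theorem d8_cases [Finite H] (c2 : c * c = 1) (k2 : k * k = 1)
    (v2 : v * v = 1) (w2 : w * w = 1) (ha : orderOf (c * k * (c * k)) = 2)
    (hv : v * (c * k * (c * k)) * v = c) (hw : w * (c * k * (c * k)) * w = k)
    (hC : Nonempty (centralizer {c * k * (c * k)} ≃* DihedralGroup 4)) :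
    Cf fun l => [1, c, k, v, w].getD l 1 := by
  have s5 : ∀ n (h : n ≤ 5), (H ≃* Perm (Fin n)) → Cf fun l => [1, c, k, v, w].getD l 1 := by
    intro n h e
    refine cf_of ((Perm.viaEmbeddingHom (Fin.castLEEmb (by omega : n ≤ 9))).comp e.toMonoidHom)
      ((Perm.viaEmbeddingHom_injective _).comp e.injective) (fun x hx => ?_) chk5 c2 k2 v2 w2 ha hv hw
    have k : invL.filter (fun c => [5, 6, 7, 8].all fun i => Nat.beq (pf c i) i) = L5 := by
      decide +kernel
    rw [← k]
    refine List.mem_filter.2 ⟨mem_invp (by rw [← map_mul, hx, map_one]), List.all_eq_true.2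
      fun i hi => Nat.beq_eq ▸ ?_⟩
    simp only [List.mem_cons, List.not_mem_nil, or_false] at hi
    exact fix_emb _ _ (by omega) (by omega)
  rcases Agent.S3035.result _ ha hC with h | ⟨⟨e⟩⟩ | ⟨⟨e⟩⟩ | ⟨⟨e⟩⟩ | ⟨⟨e⟩⟩
  · exfalso
    set a := c * k * (c * k) with ea
    have a2 : a * a = 1 := by rw [← pow_two, ← ha, pow_orderOf_eq_one]
    obtain ⟨x, hx, o, ho, e⟩ := mem_sup_of_normal_right.1 (h ▸ mem_top v)
    have hx' : x * a = a * x := mem_centralizer_singleton_iff.1 hx
    have hc : ∀ x, c * (c * x) = x := fun x => by rw [← mul_assoc, c2, one_mul]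
    have hk : ∀ x, k * (k * x) = x := fun x => by rw [← mul_assoc, k2, one_mul]
    have h1 : c * a ∈ oddCore H := by
      have := (pPrimeCore_normal 2 H).conj_mem _ (mul_mem ho
        ((pPrimeCore_normal 2 H).conj_mem _ (inv_mem ho) a)) x
      have e1 : c * a = v * a * v⁻¹ * a⁻¹ := by
        rw [inv_eq_of_mul_eq_one_right v2, inv_eq_of_mul_eq_one_right a2, hv]
      rw [e1, ← e, mul_inv_rev, mul_assoc _ _ a⁻¹, mul_assoc o⁻¹, ← mul_inv_rev, ← hx', mul_inv_rev]
      simpa only [mul_assoc] using this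
    have h2 : c * a * (c * a) = 1 := by simp only [ea, mul_assoc, hc, hk, k2]
    have h3 : c * a = 1 := by
      have := Nat.Coprime.coprime_dvd_left (orderOf_dvd_natCard (⟨_, h1⟩ : oddCore H))
        (L0.coprime_card_pPrimeCore 2)
      rw [orderOf_mk] at this
      exact orderOf_eq_one_iff.1 (Nat.Coprime.eq_one_of_dvd this
        (orderOf_dvd_of_pow_eq_one (by rw [pow_two, h2])))
    have h4 : c = 1 := by
      have := congrArg (fun x => k * (x * k)) h3
      simpa only [ea, mul_assoc, hc, hk, k2, mul_one, one_mul] using this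
    rw [ea, h4, one_mul, k2, orderOf_one] at ha
    omega
  · exact s5 4 (by omega) e
  · exact s5 5 le_rfl e
  · let f : (Fin 3 → ZMod 2) ↪ Fin 9 := ⟨fun x => ⟨(x 0).val + 2 * (x 1).val + 4 * (x 2).val, by
      revert x; decide⟩, by decide⟩
    let ρ := MulAction.toPermHom ((Fin 3 → ZMod 2) ≃ₗ[ZMod 2] (Fin 3 → ZMod 2)) (Fin 3 → ZMod 2)
    refine cf_of ((Perm.viaEmbeddingHom f).comp (ρ.comp
      (Matrix.SpecialLinearGroup.toLin'.comp e.toMonoidHom)))
      ((Perm.viaEmbeddingHom_injective _).comp (MulAction.toPerm_injective.comp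
        (Matrix.SpecialLinearGroup.toLin'_injective.comp e.injective)))
      (fun x hx => ?_) chk7 c2 k2 v2 w2 ha hv hw
    have k : invL.filter (fun c => Nat.beq (pf c 8) 8 && (List.range 8).all fun i =>
        (List.range 8).all fun j => Nat.beq (pf c (i ^^^ j)) (pf c i ^^^ pf c j)) = L7 := by
      decide +kernel
    rw [← k]
    refine List.mem_filter.2 ⟨mem_invp (by rw [← map_mul, hx, map_one]), ?_⟩
    have k1 : ∀ x y, (f (x + y)).1 = (f x).1 ^^^ (f y).1 := by decide
    have k2 : ∀ i < 8, ∃ x, (f x).1 = i := by decide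
    have k3 : (⟨8, by omega⟩ : Fin 9) ∉ Set.range f := by
      rintro ⟨x, e⟩; exact (by decide : ∀ x, (f x).1 ≠ 8) x (congrArg Fin.val e)
    simp only [Bool.and_eq_true, List.all_eq_true, List.mem_range, Nat.beq_eq]
    refine ⟨?_, fun i hi j hj => ?_⟩
    · rw [pf_cdp _ (by omega), MonoidHom.comp_apply, Perm.viaEmbeddingHom_apply,
        Perm.viaEmbedding_apply_of_notMem _ _ _ k3]
    · obtain ⟨y, rfl⟩ := k2 i hi
      obtain ⟨z, rfl⟩ := k2 j hj
      rw [← k1, pf_cdp', pf_cdp', pf_cdp']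
      simp only [MonoidHom.comp_apply, Perm.viaEmbeddingHom_apply, Perm.viaEmbedding_apply]
      rw [← k1]
      exact congrArg (fun t => (f t).1) (map_add (Matrix.SpecialLinearGroup.toLin' (e x)) y z)
  · refine cf_of ((Perm.viaEmbeddingHom (Fin.castLEEmb (by omega : 6 ≤ 9))).comp
      ((alternatingGroup _).subtype.comp e.toMonoidHom)) ((Perm.viaEmbeddingHom_injective _).comp
        (Subtype.val_injective.comp e.injective)) (fun x hx => ?_) chk6 c2 k2 v2 w2 ha hv hw
    have k : invL.filter (fun c => ([6, 7, 8].all fun i => Nat.beq (pf c i) i) && decide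
      ((-1 : ℤˣ) ^ ((9 - ∑ i : Fin 9, if pf c i = i then 1 else 0) / 2) = 1)) = L6 := by
      decide +kernel
    rw [← k]
    have h2 : ∀ {σ : Perm (Fin 9)}, σ * σ = 1 → Perm.sign σ = 1 →
        (-1 : ℤˣ) ^ ((9 - ∑ i : Fin 9, if pf (cdp σ) i = i then 1 else 0) / 2) = 1 := by
      intro σ h1 h2
      rw [Perm.sign_of_pow_two_eq_one (by rw [pow_two, h1]), Fintype.card_fin,
        Fintype.card_subtype, Finset.card_filter] at h2
      simp only [pf_cdp', Fin.val_inj]
      exact h2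
    refine List.mem_filter.2 ⟨mem_invp (by rw [← map_mul, hx, map_one]), ?_⟩
    rw [Bool.and_eq_true, decide_eq_true_eq]
    refine ⟨List.all_eq_true.2 fun i hi => Nat.beq_eq ▸ ?_, h2 (by rw [← map_mul, hx, map_one]) ?_⟩
    · simp only [List.mem_cons, List.not_mem_nil, or_false] at hi
      exact fix_emb _ _ (by omega) (by omega)
    · exact (@Perm.sign_extendDomain _ _ _ _ _ _ _ _ (fun _ => Classical.propDecidable _) _).trans
        (Perm.mem_alternatingGroup.1 (e x).2)

end Cfsg.TH
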