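import Cfsg.Agent.TH.G2
import Cfsg.Agent.TH.G3

/-! The generator `b`. -/

set_option autoImplicit false
set_option linter.unusedSectionVars false
set_option maxRecDepth 100000

namespace Cfsg.TH

open Subgroup Cfsg.H6 Equiv

variable {V : Type*} [AddCommGroup V] [Module (ZMod 2) V] {D : VD V} {G : Type*} [Group G]

theorem Cf.map {H : Type*} [Group H] {x : ℕ → H} (h : Cf x) (f : H →* G)
    (hf : Function.Injective f) : Cf fun l => f (x l) := by
  simp only [Cf, ← map_evL, ne_eq, map_eq_one_iff f hf]; exact h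

def tab : DihedralGroup 4 → ℕ
  | .r i => [0, 490, 256, 234].getD i.val 0
  | .sr i => [386, 104, 130, 360].getD i.val 0

namespace Nm

variable {P : Spin D} {S : Ch D G} {g : ℕ → G} (N : Nm P S g)
include N

theorem fixv {n : ℕ} (hn : n < 512) {w : List ℕ} (hw : okw (fw w) = true)
    (c : Commute (evL g (q1 n)) (evL g w)) : vw (fw w) (n % 256) = n % 256 := by
  have := D.mem_K.1 (S.mem_K_of (N.mem w) (N.wQ n) c.eq)
  rw [N.π, N.cvq n hn, P.w hw] at this
  exact P.eq (Spin.vw_lt (Nat.mod_lt _ (by omega)) _) (Nat.mod_lt _ (by omega)) this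

theorem comπ {y : G} (hy : y ∈ S.C) {u w : List ℕ} (hu : Commute y (evL g u))
    (hw : Commute y (evL g w)) : cd (S.π y) ∈ bt (Pcom [pw (fw u), pw (fw w)]) 9 := by
  have k : ∀ u, Commute y (evL g u) → (S.π y).1 * (aw (fw u)).1 = (aw (fw u)).1 * (S.π y).1 :=
    fun u h => congrArg Subtype.val (show S.π y * aw _ = aw _ * S.π y by
      rw [← N.π, ← S.π_mul hy (N.mem u), h.eq, S.π_mul (N.mem u) hy])
  have := mem_com (S.π y).1 [(aw (fw u)).1, (aw (fw w)).1] (by
    simp only [List.forall_mem_cons]; exact ⟨k u hu, k w hw, by simp⟩)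
  rwa [← cd_aw, ← cd_aw]

theorem d8 {a : centralizer {g 6, g 8}} (ha : a.1 = g 1) :
    Nonempty (centralizer {a} ≃* DihedralGroup 4) := by
  let f : DihedralGroup 4 →* G := MonoidHom.mk' (fun x => evL g (q1 (tab x))) fun x y => by
    rw [← evL_append]
    exact N.eq ((by decide +kernel : ∀ x y, re (q1 (tab (x * y))) (q1 (tab x) ++ q1 (tab y)) = true)
      x y)
  have h1 : ∀ x, f x ∈ centralizer {g 6, g 8} := fun x => by
    have k : ∀ x, rel (cw [6] (q1 (tab x))) = true ∧ rel (cw [8] (q1 (tab x))) = true := by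
      decide +kernel
    rintro _ (rfl | rfl)
    · exact evL_singleton g 6 ▸ (N.cm (k x).1).eq
    · exact evL_singleton g 8 ▸ (N.cm (k x).2).eq
  have h2 : ∀ x, f.codRestrict _ h1 x ∈ centralizer {a} := fun x =>
    mem_centralizer_singleton_iff.2 (Subtype.ext (by
      change f x * a.1 = a.1 * f x; rw [ha, N.z]; exact S.qz (N.wQ _)))
  refine ⟨(MulEquiv.ofBijective ((f.codRestrict _ h1).codRestrict _ h2) ⟨?_, ?_⟩).symm⟩
  · refine (injective_iff_map_eq_one _).2 fun x h => ?_
    exact (by decide +kernel : ∀ x, rel (q1 (tab x)) = true → x = 1) x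
      ((N.orc _).1 (congrArg (fun y => y.1.1) h))
  · rintro ⟨⟨y, hy⟩, hy'⟩
    have yC : y ∈ S.C := mem_C.2 (by
      rw [← N.z, ← ha]; exact congrArg Subtype.val (mem_centralizer_singleton_iff.1 hy'))
    have c6 : Commute y (evL g [6]) := (evL_singleton g 6).symm ▸ (hy _ (by simp)).symm
    have c8 : Commute y (evL g [8]) := (evL_singleton g 8).symm ▸ (hy _ (by simp)).symm
    have := N.comπ yC c6 c8
    rw [show bt _ 9 = [idc, cdp (swap 7 8)] by decide +kernel] at this
    simp only [List.mem_cons, List.not_mem_nil, or_false] at this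
    rcases this with e | e
    · obtain ⟨n, hn, rfl⟩ := N.enum y ((S.π_ker yC).1 (cd_eq_one.1 e))
      obtain ⟨x, rfl⟩ := (by decide +kernel : ∀ n < 512, vw (fw [6]) (n % 256) = n % 256 →
        vw (fw [8]) (n % 256) = n % 256 → ∃ x, tab x = n) n hn
        (N.fixv hn (by decide) c6) (N.fixv hn (by decide) c8)
      exact ⟨x, rfl⟩
    · have := Perm.mem_alternatingGroup.1 (S.π y).2
      rw [cdp_inj e, Perm.sign_swap (by decide)] at this
      exact absurd this (by decide)

variable [Finite G] (hq : S.QC')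
include hq

theorem no5 {y : G} (y5 : y ^ 5 = 1) (y1 : y ≠ 1) (cd : Commute y (g 4)) (ct : Commute (g 8) y)
    (ha : g 1 * y * g 1 * y = 1) : False := by
  obtain ⟨γ, hγ⟩ := isConj_iff.1 (S.ac P hq _ (N.m1 4) (N.sq (by decide +kernel)) (by
    rw [N.π1]; exact isConj_iff.2 ⟨aw [1, 6, 3, 7, 1], by decide +kernel⟩)).symm
  obtain ⟨T, hz, hT⟩ : ∃ T : Ch D G, T.z = g 4 ∧ T.QC' := ⟨S.mv γ, hγ, hq.mv γ⟩
  have yC : y ∈ T.C := mem_C.2 (hz ▸ cd.eq)
  have tC : g 8 ∈ T.C := mem_C.2 (hz ▸ (N.cm1 (by decide +kernel)).eq)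
  have aC : g 1 ∈ T.C := mem_C.2 (hz ▸ (N.cm1 (by decide +kernel)).eq)
  have a2 : g 1 * g 1 = 1 := N.sq (by decide +kernel)
  have t3 : g 8 * g 8 * g 8 = 1 := by
    simpa only [evL_cons, evL_nil, mul_one, mul_assoc] using N.r1 (w := [8, 8, 8]) (by decide +kernel)
  obtain ⟨τ, e⟩ := isConj_iff.1 (five_class (σ := T.π y) (by rw [← T.π_pow yC, y5, T.π_one])
    fun h => y1 (T.eq_one_of_odd ((T.π_ker yC).1 h) (by decide) y5))
  have cm : ∀ {a b}, a ∈ T.C → b ∈ T.C → Commute a b →
      Commute (τ * T.π a * τ⁻¹) (τ * T.π b * τ⁻¹) := fun ha hb h => by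
    rw [Commute, SemiconjBy, conj_mul, conj_mul, ← T.π_mul ha hb, h.eq, T.π_mul hb ha]
  have h1 : τ * T.π (g 1) * τ⁻¹ * aw wW * (τ * T.π (g 1) * τ⁻¹) * aw wW = 1 := by
    rw [← e, conj_mul, conj_mul, conj_mul, ← T.π_mul aC yC, ← T.π_mul (mul_mem aC yC) aC,
      ← T.π_mul (mul_mem (mul_mem aC yC) aC) yC, ha, T.π_one]; simp
  have h2 := T.ππ aC (a2 ▸ one_mem _)
  refine five_c (t := τ * T.π (g 8) * τ⁻¹) (by
      rw [conj_mul, conj_mul, ← T.π_mul tC tC, ← T.π_mul (mul_mem tC tC) tC, t3, T.π_one]; simp)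
    (fun h => ?_) (e ▸ cm tC yC ct) (by rw [conj_mul, h2]; simp) h1
    (cm aC tC (N.cm1 (by decide +kernel))) ((isConj_iff.2 ⟨τ, rfl⟩).symm.trans
      ((inv_class h2 fun h => ?_).resolve_right (T.nb P hT aC a2)))
  · exact N.ne (u := [8]) (w := []) (by decide +kernel) ((evL_singleton _ _).trans
      (T.eq_one_of_odd ((T.π_ker tC).1 (conj_eq_one_iff.1 h)) (n := 3) (by decide)
        (by rw [pow_three, ← mul_assoc, t3])))
  · rw [h] at h1
    exact absurd (by simpa using h1 : aw wW * aw wW = 1) (by decide +kernel)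

theorem exists_b {v : G} (v2 : v * v = 1)
    (hv : ∀ l ∈ dm ++ [13, 15, 10, 11], v * g l * v⁻¹ = evL g (th l)) :
    ∃ b, b * b = 1 ∧ g 1 * b * (g 1 * b) * (g 1 * b) = 1 ∧ b * g 3 * (b * g 3) * (b * g 3) = 1 ∧
      (∀ l ∈ [4, 5, 6, 8], Commute b (g l)) ∧ b * g 1 * g 3 * b = v := by
  have vi := inv_eq_of_mul_eq_one_right v2
  have cv : ∀ l ∈ [6, 7, 8, 12], Commute v (g l) := fun l hl => mul_inv_eq_iff_eq_mul.1
    ((hv l (by revert l; simp [dm])).trans (by
      simp only [List.mem_cons, List.not_mem_nil, or_false] at hl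
      rcases hl with rfl | rfl | rfl | rfl <;> exact evL_singleton _ _))
  have E : ∀ {u w}, re u w = true → evL g u = evL g w := N.eq
  have d2 : g 4 * g 4 = 1 := N.sq (by decide +kernel)
  have c2 : g 3 * g 3 = 1 := N.sq (by decide +kernel)
  have k2 : g 14 * g 14 = 1 := N.sq (by decide +kernel)
  have a2 : g 1 * g 1 = 1 := N.sq (by decide +kernel)
  have di := inv_eq_of_mul_eq_one_right d2
  let φ := MulAut.conj (g 4)
  have φe : ∀ x, φ x = g 4 * x * (g 4)⁻¹ := fun _ => rfl
  have φl : ∀ {i j}, re [4, i] [j, 4] = true → φ (g i) = g j := fun h =>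
    mul_inv_eq_iff_eq_mul.2 (by simpa only [evL_cons, evL_nil, mul_one] using E h)
  have φa : φ (g 1) = g 1 := φl (by decide +kernel)
  have φc : φ (g 3) = g 14 := φl (by decide +kernel)
  have φk : φ (g 14) = g 3 := φl (by decide +kernel)
  have φw : φ (φ v) = v := by
    rw [φe, φe, di]; simp only [← mul_assoc, d2, one_mul]; rw [mul_assoc, d2, mul_one]
  have ea : g 3 * g 14 * (g 3 * g 14) = g 1 := by
    simpa only [evL_cons, evL_nil, mul_one, mul_assoc] using
      E (u := [3, 14, 3, 14]) (w := [1]) (by decide +kernel)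
  have va : v * g 1 * v = g 3 := by
    have := hv 1 (by simp [dm])
    rw [vi] at this; exact this.trans (evL_singleton _ _)
  have mH : ∀ {x}, Commute x (g 6) → Commute x (g 8) → x ∈ centralizer {g 6, g 8} := by
    rintro x h1 h2 _ (rfl | rfl)
    exacts [h1.symm.eq, h2.symm.eq]
  have cH := mH (N.cm1 (i := 3) (by decide +kernel)) (N.cm1 (by decide +kernel))
  have kH := mH (N.cm1 (i := 14) (by decide +kernel)) (N.cm1 (by decide +kernel))
  have vH := mH (cv 6 (by simp)) (cv 8 (by simp))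
  have wH : φ v ∈ centralizer {g 6, g 8} := mH
    (φl (i := 7) (j := 6) (by decide +kernel) ▸ (cv 7 (by simp)).map φ)
    (φl (i := 8) (j := 8) (by decide +kernel) ▸ (cv 8 (by simp)).map φ)
  have w2 : φ v * φ v = 1 := by rw [← map_mul, v2, map_one]
  have wg : Commute (φ v) (g 13) :=
    φl (i := 12) (j := 13) (by decide +kernel) ▸ (cv 12 (by simp)).map φ
  have ce : ∀ x, Commute x (g 13) → Commute (g 14 * v * x * v * g 14) (g 5) := fun x h => by
    have h1 := h.map (MulAut.conj (g 14 * v))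
    have h2 := E (u := [14, 15, 14]) (w := [5]) (by decide +kernel)
    have h3 := hv 13 (by simp)
    simp only [evL_cons, evL_nil, mul_one, show th 13 = [15] from rfl] at h2 h3
    rw [← h2, ← h3]
    simpa only [MulAut.conj_apply, mul_inv_rev, vi, inv_eq_of_mul_eq_one_right k2, mul_assoc]
      using h1
  obtain ⟨x, x1, x2, x3, x4, hx⟩ : ∃ x : ℕ → G, x 1 = g 3 ∧ x 2 = g 14 ∧ x 3 = v ∧ x 4 = φ v ∧
      Cf x := ⟨_, rfl, rfl, rfl, rfl, (d8_cases (c := ⟨_, cH⟩) (k := ⟨_, kH⟩) (v := ⟨_, vH⟩)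
    (w := ⟨_, wH⟩) (Subtype.ext c2) (Subtype.ext k2) (Subtype.ext v2) (Subtype.ext w2) (by
      rw [← orderOf_coe]
      change orderOf (g 3 * g 14 * (g 3 * g 14)) = 2
      rw [ea]
      exact orderOf_eq_prime (by rw [pow_two, a2]) (N.z ▸ S.z1))
    (Subtype.ext (by change v * (g 3 * g 14 * (g 3 * g 14)) * v = _; rw [ea, va]))
    (Subtype.ext (by
      change φ v * (g 3 * g 14 * (g 3 * g 14)) * φ v = _
      rw [ea, ← φa, ← map_mul, ← map_mul, va, φc]))
    (N.d8 ea)).map (Subgroup.subtype _) Subtype.val_injective⟩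
  have ea' : ∀ y, g 3 * (g 14 * (g 3 * (g 14 * y))) = g 1 * y := fun y => by
    rw [← ea]; simp only [mul_assoc]
  have hc : ∀ y, g 3 * (g 3 * y) = y := fun y => by rw [← mul_assoc, c2, one_mul]
  have hk : ∀ y, g 14 * (g 14 * y) = y := fun y => by rw [← mul_assoc, k2, one_mul]
  have hv' : ∀ y, v * (v * y) = y := fun y => by rw [← mul_assoc, v2, one_mul]
  have hw : ∀ y, φ v * (φ v * y) = y := fun y => by rw [← mul_assoc, w2, one_mul]
  have ha : ∀ y, g 1 * (g 1 * y) = y := fun y => by rw [← mul_assoc, a2, one_mul]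
  simp only [Cf, R1, R3, r2, n2, n3, List.forall_mem_cons, evL_cons, evL_nil, x1, x2, x3, x4, ea',
    mul_one] at hx
  rcases hx with ⟨h1, h2, h3, h4, h5, -⟩ | ⟨h1, h2⟩ | ⟨⟨h1, h2, h3, -⟩, h4⟩
  · have hb : g 14 * v * φ v * v * g 14 ∈ centralizer {g 6, g 8} :=
      mul_mem (mul_mem (mul_mem (mul_mem kH vH) wH) vH) kH
    have b2 : g 14 * v * φ v * v * g 14 * (g 14 * v * φ v * v * g 14) = 1 := by
      simpa only [mul_assoc] using h2
    refine ⟨_, b2, by simpa only [mul_assoc] using h3, by simpa only [mul_assoc] using h4, ?_, ?_⟩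
    · simp only [List.forall_mem_cons]
      refine ⟨(mul_inv_eq_iff_eq_mul.1 ?_ : Commute _ _).symm, ce _ wg, (hb _ (by simp)).symm,
        (hb _ (by simp)).symm, by simp⟩
      rw [← φe, ← mul_right_inj (g 14 * v * φ v * v * g 14), b2]
      simpa only [map_mul, φk, φw, mul_assoc] using h1
    · rw [← mul_left_inj v, v2]; simpa only [mul_assoc, ← ea'] using h5
  · exfalso
    set B := g 14 * v * (φ v * g 1 * g 14) * v * g 14 with hB
    have c1 : Commute B (g 4 * g 1) := by
      have : g 1 * B * g 1 = g 3 * φ v * v * g 1 * g 3 * φ v * g 3 := by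
        rw [← mul_left_inj (g 3 * (φ v * (g 3 * (g 1 * (v * (φ v * g 3))))))]
        simp only [hB, mul_assoc, hc, hw, ha, hv', c2, h1]
      have h3 : φ (g 1 * B * g 1) = B := by
        rw [this]; simp only [map_mul, φc, φw, φa, hB, mul_assoc]
      rw [φe, mul_inv_eq_iff_eq_mul] at h3
      rw [Commute, SemiconjBy, ← mul_assoc, ← h3]
      simp only [mul_assoc, a2, mul_one]
    have c2 : Commute B (g 1) := by
      have h3 := E (u := [1]) (w := [4, 1, 5, 4, 1, 5, 4, 1, 5]) (by decide +kernel)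
      have h4 := c1.mul_right (ce _ ((wg.mul_left (N.cm1 (i := 1) (by decide +kernel))).mul_left
        (N.cm1 (i := 14) (by decide +kernel))))
      simp only [evL_cons, evL_nil, mul_one] at h3
      rw [h3]
      simpa only [mul_assoc] using h4.mul_right (h4.mul_right h4)
    have := congrArg (fun y => g 1 * y * (g 14 * (v * (g 14 * (g 1 * (φ v * (v * g 14))))))) c2.eq
    simp only [hB, mul_assoc, hk, hv', hw, ha, k2] at this
    exact h2 this
  · have c1 : Commute (v * φ v * v * φ v * v) (g 4) := by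
      refine (mul_inv_eq_iff_eq_mul.1 ?_ : Commute _ _).symm
      rw [← φe, ← mul_right_inj (v * φ v * v * φ v * v)]
      simp only [map_mul, φw, mul_assoc, h1, hv', hw, v2]
    exact (N.no5 hq (y := g 1 * (v * φ v * v * φ v * v)) (by
      simpa only [pow_succ, pow_zero, one_mul, mul_assoc] using h2) (by
      simpa only [mul_assoc] using h4) ((N.cm1 (by decide +kernel)).mul_left c1)
      (mul_mem (ea ▸ mul_mem (mul_mem cH kH) (mul_mem cH kH)) (mul_mem (mul_mem (mul_mem
        (mul_mem vH wH) vH) wH) vH) _ (by simp)) (by simpa only [mul_assoc] using h3)).elim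

end Nm

end Cfsg.TH
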