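import Cfsg.Agent.TH.G4
import Cfsg.Agent.TH.THX
import Cfsg.Agent.TH.THO0
import Cfsg.Agent.TH.THO1
import Cfsg.Agent.TH.THO2
import Cfsg.Agent.TH.THO3
import Cfsg.Agent.TH.THO4
import Cfsg.Agent.TH.THO5
import Cfsg.Agent.TH.THO6
import Cfsg.Agent.H6.Th.Pres

/-! The relators of the presentation hold. -/

set_option autoImplicit false
set_option linter.unusedSectionVars false
set_option maxRecDepth 100000

namespace Cfsg.TH

open Subgroup Cfsg.H6

variable {V : Type*} [AddCommGroup V] [Module (ZMod 2) V] {D : VD V} {G : Type*} [Group G]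

def WS : List (List ℕ) := [[], [4], [5, 4], [6, 5, 4], [7, 5, 4], [5, 6, 5, 4], [6, 6, 5, 4], [5, 7, 5, 4]]
def gq (i : ℕ) : List ℕ := if i < 8 then WS.getD i [] ++ [3] ++ invW I1 (WS.getD i []) else [1]
def qi (l : ℕ) : List ℕ := [[1, 2, 5, 3, 6], [4, 1, 7, 2], [4, 0, 2, 6, 5], [4, 0, 1, 5, 3],
  [0, 7, 2, 6, 3], [4, 7, 6, 5], [0, 7, 6, 3], [4, 0, 1, 7, 2], [8]].getD (l - 20) []
def Rb : List (List ℕ) := [[2, 2], [1, 2, 1, 2, 1, 2], [2, 3, 2, 3, 2, 3], [2, 4, 2, 4], [2, 5, 2, 5],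
  [7, 2, 6, 2], [9, 2, 8, 2], [2, 1, 3, 2] ++ [4, 3, 4, 5, 4, 3, 4] ++ [2, 1, 3, 2] ++
  [7, 5, 7, 4, 3, 4, 5, 4, 3, 4, 7, 7, 7, 5, 7, 4, 3, 4, 5, 4, 3, 4, 5, 7, 5]]
def om (l : ℕ) : ℕ := [0, 1, 3, 5, 10, 11, 14, 16, 17].getD l 0
/-- The letters of the presentation. -/
def e2 (g : ℕ → G) (b : G) (l : ℕ) : G := if l = 2 then b else if l < 12 then g l else 1
/-- The letters of the subgroup normalizing the eight-group. -/
def eo (g : ℕ → G) (v : G) (l : ℕ) : G := if l = 9 then v else g (om l)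

theorem invL_big {I l : ℕ} (n : ℕ) (h : I < 2 ^ (8 * n)) (hl : n ≤ l) : H6.invL I l = 0 := by
  change (_ >>> (8 * l)) &&& 255 = 0
  rw [Nat.shiftRight_eq_div_pow, Nat.div_eq_of_lt, Nat.zero_and]
  exact lt_of_lt_of_le h (Nat.pow_le_pow_right (by omega) (by omega))

theorem e2_w (g : ℕ → G) (b : G) {w : List ℕ} (h : ∀ l ∈ w, l ≠ 2 ∧ l < 12) :
    evL (e2 g b) w = evL g w :=
  evL_congr fun l hl => (if_neg (h l hl).1).trans (if_pos (h l hl).2)

namespace Nm

variable {P : Spin D} {S : Ch D G} {g : ℕ → G} (N : Nm P S g)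
include N

theorem Q_le {H : Subgroup G} (h : ∀ i, evL g (gq i) ∈ H) : S.Q ≤ H := fun x hx => by
  obtain ⟨n, -, rfl⟩ := N.enum x hx
  refine evL_mem_of_letters fun l hl => ?_
  obtain ⟨j, hj, rfl⟩ := List.mem_map.1 hl
  have := qw_mem hj
  rw [← evL_singleton g, N.eq ((by decide +kernel : ∀ l < 29, 20 ≤ l →
    re [l] ((qi l).flatMap gq) = true) _ (by omega) (by omega)), ← evL_flat]
  exact evL_mem_of_letters fun i _ => h i

theorem cj {u y w : List ℕ} (h : re (u ++ y ++ invW I1 u) w = true) :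
    evL g u * evL g y * (evL g u)⁻¹ = evL g w := by
  rw [← N.eq h, evL_append, evL_append, evL_invW N.good]

variable {v : G} (v2 : v * v = 1)
  (hv : ∀ l ∈ dm ++ [13, 15, 10, 11], v * g l * v⁻¹ = evL g (th l))
include v2 hv

theorem chain {y w1 w2 w3 : List ℕ} (h : (∀ l ∈ w1 ++ w2 ++ w3, l ∈ dm ++ [13, 15, 10, 11]) ∧
    re ([5, 11] ++ y ++ invW I1 [5, 11]) w1 = true ∧
    re ([3, 5, 17] ++ w1.flatMap th ++ invW I1 [3, 5, 17]) w2 = true ∧
    re ([16] ++ w2.flatMap th ++ invW I1 [16]) w3 = true ∧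
    re ([17] ++ w3.flatMap th ++ invW I1 [17]) y = true) :
    Commute (evL (eo g v) [8, 9, 7, 9, 2, 3, 8, 9, 3, 5]) (evL g y) := by
  obtain ⟨h0, h1, h2, h3, h4⟩ := h
  simp only [List.forall_mem_append] at h0
  have := N.cj h4
  rw [← conj_w fun l hl => hv l (h0.2 l hl), ← N.cj h3, ← conj_w fun l hl => hv l (h0.1.2 l hl),
    ← N.cj h2, ← conj_w fun l hl => hv l (h0.1.1 l hl), ← N.cj h1] at this
  refine mul_inv_eq_iff_eq_mul.1 (Eq.trans ?_ this)
  simp only [evL_cons, evL_nil, mul_one, mul_inv_rev, mul_assoc]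
  rfl

theorem omega : evL (eo g v) [8, 9, 7, 9, 2, 3, 8, 9, 3, 5] = 1 := by
  have vi := inv_eq_of_mul_eq_one_right v2
  have c1 := N.chain v2 hv (y := [1]) (w1 := [1]) (w2 := [1, 12]) (w3 := [3]) (by decide +kernel)
  have c2 := N.chain v2 hv (y := [8]) (w1 := [9]) (w2 := [8]) (w3 := [9]) (by decide +kernel)
  have c3 := N.chain v2 hv (y := [6, 5, 6, 10, 7, 7, 1, 13]) (w1 := [5, 6, 10, 8, 7, 1, 13])
    (w2 := [6, 5, 7, 10, 8, 1, 6, 6, 13, 7, 7]) (w3 := [5, 10, 7, 5, 7, 10, 6, 1, 6, 13, 7])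
    (by decide +kernel)
  have hC := mem_C.2 (N.z ▸ evL_singleton g 1 ▸ c1.eq)
  have h1 := N.comπ hC c2 c3
  rw [show bt _ 9 = [idc] by decide +kernel, List.mem_singleton] at h1
  obtain ⟨n, hn, e⟩ := N.enum _ ((S.π_ker hC).1 (cd_eq_one.1 h1))
  have ew : ∀ w : List ℕ, 9 ∉ w → evL (eo g v) w = evL g (w.map om) := fun w h => by
    rw [evL, evL, List.map_map]
    exact congrArg List.prod (List.map_congr_left fun l hl => if_neg fun e : l = 9 => h (e ▸ hl))
  have hg : Good (eo g v) 42631003708364509282560 := ⟨N.good.zero, fun l => by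
    by_cases h : l < 10
    · by_cases h9 : l = 9
      · rw [h9]; exact vi.symm
      · obtain ⟨k1, k2⟩ := (by decide : ∀ l < 10, l ≠ 9 → H6.invL 42631003708364509282560 l ≠ 9 ∧
          om (H6.invL 42631003708364509282560 l) = H6.invL I1 (om l)) l h h9
        rw [eo, eo, if_neg k1, if_neg h9, k2, N.good.inv]
    · rw [invL_big 10 (by decide) (by omega), eo, eo, if_neg (by omega), if_neg (by omega),
        show om l = 0 from List.getD_eq_default _ _ (by change 9 ≤ l; omega)]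
      exact N.good.inv 0⟩
  have hR : ∀ x, 9 ∉ x → rel (q1 n ++ x.map om) = true → Rels (eo g v) (THR.RO x) := by
    intro x hx h r hr
    rcases List.mem_append.1 hr with hr | hr
    · have k : ∀ r ∈ THR.RM, (9 ∉ r ∧ rel (r.map om) = true) ∨ r = [9, 9] ∨ ∃ p ∈ [([1], [1], [2]),
          ([3], [5], [3]), ([4], [10], [3, 5]), ([6, 3, 6], [15], [5, 6, 5, 6, 2])],
          r = 9 :: p.1 ++ 9 :: p.2.2 ∧ 9 ∉ p.1 ∧ 9 ∉ p.2.2 ∧ re (p.1.map om) p.2.1 = true ∧
          (∀ l ∈ p.2.1, l ∈ dm ++ [13, 15, 10, 11]) ∧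
          rel (p.2.1.flatMap th ++ p.2.2.map om) = true := by decide +kernel
      rcases k r hr with ⟨k1, k2⟩ | rfl | ⟨p, -, rfl, k1, k2, k3, k4, k5⟩
      · rw [ew r k1, N.r1 k2]
      · exact (congrArg _ (mul_one _)).trans v2
      · have := N.r1 k5
        rw [evL_append, ← conj_w fun l hl => hv l (k4 l hl), ← N.eq k3, vi] at this
        rw [evL_append, evL_cons, evL_cons, ew _ k1, ew _ k2, ← mul_assoc]
        exact this
    · rw [List.mem_singleton.1 hr, evL_append, e, ew x hx, ← evL_append, N.r1 h]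
  have no : ¬ evL (eo g v) [1] ∈ gen (eo g v) [] := by
    rw [gen_nil, mem_bot, evL_singleton]; exact fun h => S.z1 (N.z.symm.trans h)
  rw [e] at c2 c3 ⊢
  have := (by decide +kernel : ∀ n < 512, vw (fw [8]) (n % 256) = n % 256 →
      vw (fw [6, 5, 6, 10, 7, 7, 1, 13]) (n % 256) = n % 256 →
      n ∈ [0, 256, 386, 130, 272, 16, 146, 402]) n hn (N.fixv hn (by decide) c2)
    (N.fixv hn (by decide) c3)
  simp only [List.mem_cons, List.not_mem_nil, or_false] at this
  rcases this with rfl | rfl | rfl | rfl | rfl | rfl | rfl | rfl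
  · rfl
  · exact (no (THO0.mem hg (hR _ (by decide) (by decide +kernel)) _ (by decide))).elim
  · exact (no (THO1.mem hg (hR _ (by decide) (by decide +kernel)) _ (by decide))).elim
  · exact (no (THO2.mem hg (hR _ (by decide) (by decide +kernel)) _ (by decide))).elim
  · exact (no (THO3.mem hg (hR _ (by decide) (by decide +kernel)) _ (by decide))).elim
  · exact (no (THO4.mem hg (hR _ (by decide) (by decide +kernel)) _ (by decide))).elim
  · exact (no (THO5.mem hg (hR _ (by decide) (by decide +kernel)) _ (by decide))).elim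
  · exact (no (THO6.mem hg (hR _ (by decide) (by decide +kernel)) _ (by decide))).elim

omit v2 hv in
theorem rels [Finite G] (hq : S.QC') :
    ∃ b, Good (e2 g b) 3108186227616092632570265856 ∧ Rels (e2 g b) Th.R := by
  obtain ⟨v, v2, hv⟩ := N.exists_v hq
  obtain ⟨b, b2, hab, hbc, hc, hb⟩ := N.exists_b hq v2 hv
  have vi := inv_eq_of_mul_eq_one_right v2
  have hg : Good (e2 g b) 3108186227616092632570265856 := ⟨N.good.zero, fun l => by
    by_cases h : l < 12
    · by_cases h2 : l = 2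
      · rw [h2]; exact (inv_eq_of_mul_eq_one_right b2).symm
      · obtain ⟨k1, k2, k3⟩ := (by decide : ∀ l < 12, l ≠ 2 →
          H6.invL 3108186227616092632570265856 l ≠ 2 ∧ H6.invL 3108186227616092632570265856 l < 12 ∧
          H6.invL 3108186227616092632570265856 l = H6.invL I1 l) l h h2
        rw [e2, e2, if_neg k1, if_pos k2, if_neg h2, if_pos h, k3, N.good.inv]
    · rw [invL_big 12 (by decide) (by omega), e2, e2, if_neg (by omega), if_pos (by omega),
        if_neg (by omega), if_neg h, N.good.zero, inv_one]⟩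
  have x2 : e2 g b 2 = b := rfl
  have xl : ∀ l, l ≠ 2 → l < 12 → e2 g b l = g l := fun l h h' => (if_neg h).trans (if_pos h')
  have ev : evL (e2 g b) [2, 1, 3, 2] = v := by
    rw [← hb]; simp only [evL_cons, evL_nil, mul_one, mul_assoc]; rfl
  have ev' : evL (e2 g b) [2, 3, 1, 2] = v := by
    rw [← vi, ← ev, ← evL_invW hg]; rfl
  have bb : ∀ l ∈ [4, 5, 6, 8], g l * b = b * g l := fun l h => (hc l h).symm.eq
  have r0 : ∀ R : List (List ℕ), (∀ r ∈ R, (∀ l ∈ r, l ≠ 2 ∧ l < 12) ∧ rel r = true) →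
      Rels (e2 g b) R := fun R h r hr => (e2_w g b (h r hr).1).trans (N.r1 (h r hr).2)
  have r1 : Rels (e2 g b) Rb := by
    have k : ∀ l ∈ [4, 5, 6, 8], ∀ x, b * (g l * (b * x)) = g l * x := fun l h x => by
      rw [← mul_assoc (g l), bb l h, mul_assoc, ← mul_assoc b, b2, one_mul]
    simp only [Rels, Rb, List.forall_mem_cons]
    refine ⟨(congrArg _ (mul_one _)).trans b2, ?_, ?_, (k 4 (by simp) _).trans ?_,
      (k 5 (by simp) _).trans ?_, (congrArg _ (k 6 (by simp) _)).trans ?_,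
      (congrArg _ (k 8 (by simp) _)).trans ?_, ?_, by simp⟩
    · rw [← hab]; simp only [evL_cons, evL_nil, mul_one, mul_assoc]; rfl
    · rw [← hbc]; simp only [evL_cons, evL_nil, mul_one, mul_assoc]; rfl
    · exact N.r1 (w := [4, 4]) (by decide +kernel)
    · exact N.r1 (w := [5, 5]) (by decide +kernel)
    · exact N.r1 (w := [7, 6]) (by decide +kernel)
    · exact N.r1 (w := [9, 8]) (by decide +kernel)
    · rw [evL_append, evL_append, evL_append, ev, e2_w g b (by decide), e2_w g b (by decide),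
        N.eq (u := [4, 3, 4, 5, 4, 3, 4]) (w := [15]) (by decide +kernel), evL_singleton]
      have := hv 15 (by simp)
      rw [vi] at this
      rw [this, ← evL_append]; exact N.r1 (by decide +kernel)
  have hX : ∀ w ∈ THX.T.map Prod.snd, evL (e2 g b) w ∈ S.C := fun w hw =>
    (closure_le _).2 (by
      rintro _ ⟨u, hu, rfl⟩
      rw [SetLike.mem_coe, e2_w g b (by revert u; decide)]; exact N.mem u)
      (THX.mem hg (fun r hr => ((by decide +kernel : ∀ r ∈ THR.RX,
        ((∀ l ∈ r, l ≠ 2 ∧ l < 12) ∧ rel r = true) ∨ r ∈ Rb) r hr).elim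
        (fun h => r0 [r] (by simpa using h) r (by simp)) (r1 r)) w hw)
  have r2 : evL (e2 g b) (rp 8 [2, 3, 4, 5]) = 1 := by
    have xC := hX (rp 8 [2, 3, 4, 5]) (by decide)
    have h1 := hX ([2] ++ rp 8 [2, 3, 4, 5] ++ [2]) (by decide)
    have h2 : ∀ w ∈ WS, evL (e2 g b) ([2, 1, 3, 2] ++ (invW I1 w ++ rp 8 [2, 3, 4, 5] ++ w) ++
      [2, 1, 3, 2]) ∈ S.C := fun w hw => hX _ (by revert w; decide)
    simp only [evL_append, ev, evL_singleton, x2] at h1 h2
    generalize evL (e2 g b) (rp 8 [2, 3, 4, 5]) = x at xC h1 h2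
    have h3 : S.Q ≤ centralizer {x} := N.Q_le fun i => mem_centralizer_singleton_iff.2 (by
      rw [gq]
      split_ifs with hi
      · have hw : WS.getD i [] ∈ WS := by revert i; decide
        generalize WS.getD i [] = w at hw
        have := S.cz (h2 w hw)
        have k : ∀ w ∈ WS, (∀ l ∈ invW I1 w, l ≠ 2 ∧ l < 12) ∧ ∀ l ∈ w, l ≠ 2 ∧ l < 12 := by decide
        rw [e2_w g b (k w hw).1, e2_w g b (k w hw).2, evL_invW N.good] at this
        have e3 : v * g 3 * v = S.z := by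
          have := hv 3 (by simp [dm])
          rw [vi] at this; exact this.trans ((evL_singleton _ _).trans N.z)
        have hv' : ∀ y, v * (v * y) = y := fun y => by rw [← mul_assoc, v2, one_mul]
        have := congrArg (fun y => evL g w * (v * y * v) * (evL g w)⁻¹) this
        rw [evL_append, evL_append, evL_singleton, evL_invW N.good]
        simpa only [← e3, mul_assoc, hv', v2, mul_one, mul_inv_cancel_left, mul_inv_cancel]
          using this.symm
      · rw [evL_singleton, N.z, S.cz xC])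
    refine (S.cent_Q xC fun y hy => (mem_centralizer_singleton_iff.1 (h3 hy)).symm).resolve_right
      fun e => ?_
    have h4 := S.cz h1
    rw [e, ← N.z] at h4
    have a2 : g 1 * g 1 = 1 := N.z ▸ S.z2
    have h5 : b * g 1 = 1 := by
      have : g 1 * b * (g 1 * b) * (g 1 * b) = g 1 * (b * g 1 * b * g 1) * b := by
        simp only [mul_assoc]
      rw [this, h4, ← mul_assoc, a2, one_mul, mul_assoc, b2, mul_one] at hab
      exact hab
    rw [eq_inv_of_mul_eq_one_left h5, ← N.good.inv 1] at hbc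
    exact N.ne (u := [1, 3, 1, 3, 1, 3]) (w := []) (by decide +kernel) (by
      rw [evL_nil, ← hbc]; simp only [evL_cons, evL_nil, mul_one, mul_assoc]; rfl)
  have r3 : evL (e2 g b) ([11] ++ [2, 3, 1, 2] ++ [10] ++ [2, 1, 3, 2] ++ [5]) = 1 := by
    have := hv 10 (by simp)
    rw [vi] at this
    simp only [evL_append, ev, ev', evL_singleton, mul_assoc]
    rw [← mul_assoc v, ← mul_assoc (v * _), xl 10 (by omega) (by omega), this]
    exact (by rw [evL_cons, evL_append, evL_singleton]; rfl : _ = evL g (11 :: (th 10 ++ [5]))).trans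
      (N.r1 (by decide +kernel))
  have r4 : evL (e2 g b) ([4, 11, 4] ++ [2, 3, 1, 2] ++ [4, 10, 4] ++ [2, 1, 3, 2] ++ [3, 5] ++
      [4, 11, 4] ++ [2, 3, 1, 2] ++ [5, 11]) = 1 := by
    simp only [evL_append, ev, ev']
    rw [e2_w g b (by decide), e2_w g b (by decide), e2_w g b (by decide), e2_w g b (by decide),
      N.eq (u := [4, 11, 4]) (w := [17]) (by decide +kernel),
      N.eq (u := [4, 10, 4]) (w := [16]) (by decide +kernel), ← N.omega v2 hv]
    simp only [evL_cons, evL_nil, mul_one, mul_assoc]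
    rfl
  refine ⟨b, hg, fun r hr => ?_⟩
  rcases (by decide +kernel : ∀ r ∈ Th.R, ((∀ l ∈ r, l ≠ 2 ∧ l < 12) ∧ rel r = true) ∨ r ∈ Rb ∨
    r = rp 8 [2, 3, 4, 5] ∨ r = [11] ++ [2, 3, 1, 2] ++ [10] ++ [2, 1, 3, 2] ++ [5] ∨
    r = [4, 11, 4] ++ [2, 3, 1, 2] ++ [4, 10, 4] ++ [2, 1, 3, 2] ++ [3, 5] ++
      [4, 11, 4] ++ [2, 3, 1, 2] ++ [5, 11]) r hr with h | h | rfl | rfl | rfl
  exacts [r0 [r] (by simpa using h) r (by simp), r1 r h, r2, r3, r4]

end Nm

end Cfsg.TH
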